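set_option autoImplicit false

namespace Cfsg.Agent.Lib.OverLat.A8.Amb

/-- The generators of the ambient group `A₈`. -/
def gA : List Nat := [nat_lit 0x8c73aa, nat_lit 0x972e19]

end Cfsg.Agent.Lib.OverLat.A8.Amb
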