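import Cfsg.Agent.Lib.OverLat.A8.GL4
import Cfsg.Agent.Lib.OverLat.A8.N39
import Cfsg.Agent.Lib.OverLat.A8.N40
import Cfsg.Agent.Lib.Char.Burnside

/-!
# The subgroups of `GL₄(2)` with trivial `O₂` and `O₂'`
-/

set_option autoImplicit false
set_option linter.unusedSectionVars false

namespace Cfsg.Agent.Lib.OverLat.A8.Classify

open Cfsg.Agent.Lib.PermComp.Core Cfsg.Agent.Lib.PermComp.Chain Cfsg.Agent.Lib.OverLat.Core Cfsg.Agent.Lib.OverLat.Basic Cfsg.Agent.Lib.OverLat.A8.Common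
open Subgroup
open scoped Pointwise

theorem exists_conj_of_card_prime {Γ : Type*} [Group Γ] [Finite Γ] {p : ℕ} [Fact p.Prime] (A B : Subgroup Γ)
    (hA : Nat.card A = p) (hB : Nat.card B = p) (hp : ¬ p ^ 2 ∣ Nat.card Γ) :
    ∃ x : Γ, ∀ b ∈ B, x⁻¹ * b * x ∈ A := by
  have hpr : p.Prime := Fact.out
  have hd : p ∣ Nat.card Γ := by
    rw [← hA]
    exact Subgroup.card_subgroup_dvd_card A
  have hf : (Nat.card Γ).factorization p = 1 := by
    have hne : Nat.card Γ ≠ 0 := Nat.card_pos.ne'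
    have h1 : 1 ≤ (Nat.card Γ).factorization p := (hpr.dvd_iff_one_le_factorization hne).mp hd
    have h2 : ¬ 2 ≤ (Nat.card Γ).factorization p := fun h => hp ((hpr.pow_dvd_iff_le_factorization hne).mpr h)
    omega
  let P : Sylow p Γ := Sylow.ofCard A (by rw [hA, hf, pow_one])
  let Q : Sylow p Γ := Sylow.ofCard B (by rw [hB, hf, pow_one])
  obtain ⟨g, hg⟩ := MulAction.exists_smul_eq Γ P Q
  refine ⟨g, fun b hb => ?_⟩
  have h1 : b ∈ MulAut.conj g • (P : Subgroup Γ) := by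
    rw [← Sylow.coe_subgroup_smul, hg]
    exact hb
  rw [Subgroup.mem_pointwise_smul_iff_inv_smul_mem] at h1
  have h2 : g⁻¹ * b * g ∈ (P : Subgroup Γ) := by
    simpa [MulAut.smul_def, MulAut.conj_inv_apply] using h1
  rwa [Sylow.coe_ofCard] at h2

/-- A solvable group with trivial `O₂` and `O₂'` is trivial. -/
theorem not_excl_of_solvable {K : Type*} [Group K] [Finite K] [Nontrivial K] (hs : Group.IsSolvable K) : ¬ Excl K := by
  classical
  intro hE
  obtain ⟨n, hn⟩ := (Group.isSolvable_def K).mp hs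
  have hex : ∃ n, derivedSeries K n = ⊥ := ⟨n, hn⟩
  let N := Nat.find hex
  have hN : derivedSeries K N = ⊥ := Nat.find_spec hex
  have hN0 : N ≠ 0 := by
    intro h0
    rw [h0, derivedSeries_zero] at hN
    exact top_ne_bot hN
  obtain ⟨m, hm⟩ : ∃ m, N = m + 1 := ⟨N - 1, by omega⟩
  have hA0 : derivedSeries K m ≠ ⊥ := Nat.find_min hex (by omega)
  set A := derivedSeries K m with hA
  have hAn : A.Normal := derivedSeries_normal K m
  have hcomm : ⁅A, A⁆ = ⊥ := by
    rw [hm, derivedSeries_succ] at hN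
    exact hN
  have hc : ∀ x ∈ A, ∀ y ∈ A, x * y = y * x := by
    intro x hx y hy
    have h1 := Subgroup.commutator_mem_commutator hx hy
    rw [hcomm, Subgroup.mem_bot] at h1
    exact (commutatorElement_eq_one_iff_commute.mp h1)
  by_cases hodd : (Nat.card A).Coprime 2
  · exact hA0 (hE.2 A hAn hodd)
  · have h2 : 2 ∣ Nat.card A := by
      rw [Nat.coprime_comm, Nat.Prime.coprime_iff_not_dvd Nat.prime_two, not_not] at hodd
      exact hodd
    have : Fact (Nat.Prime 2) := ⟨Nat.prime_two⟩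
    obtain ⟨y, hy⟩ := exists_prime_orderOf_dvd_card' 2 h2
    let B : Subgroup K :=
      { carrier := {x | x ∈ A ∧ ∃ k : ℕ, x ^ (2 ^ k) = 1}
        mul_mem' := by
          rintro a b ⟨ha, k, hk⟩ ⟨hb, l, hl⟩
          refine ⟨A.mul_mem ha hb, k + l, ?_⟩
          have hcomm' : Commute a b := hc a ha b hb
          rw [hcomm'.mul_pow, pow_add, pow_mul, hk, one_pow, one_mul, mul_comm (2 ^ k), pow_mul, hl, one_pow]
        one_mem' := ⟨A.one_mem, 0, by simp⟩
        inv_mem' := by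
          rintro a ⟨ha, k, hk⟩
          exact ⟨A.inv_mem ha, k, by rw [inv_pow, hk, inv_one]⟩ }
    have hBn : B.Normal := by
      constructor
      rintro a ⟨ha, k, hk⟩ g
      refine ⟨hAn.conj_mem a ha g, k, ?_⟩
      rw [conj_pow, hk]
      simp
    have hBp : IsPGroup 2 B := by
      rintro ⟨a, ha, k, hk⟩
      exact ⟨k, Subtype.ext hk⟩
    have hB0 := hE.1 B hBn hBp
    have hyB : (y : K) ∈ B := ⟨y.2, 1, by
      have h3 : y ^ 2 = 1 := by rw [← hy]; exact pow_orderOf_eq_one y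
      have := congrArg Subtype.val h3
      simpa using this⟩
    rw [hB0, Subgroup.mem_bot] at hyB
    have h4 : y = 1 := Subtype.ext hyB
    rw [h4, orderOf_one] at hy
    omega

/-- Orders not divisible by 5 and 7. -/
theorem five_or_seven {K : Type*} [Group K] [Finite K] [Nontrivial K] (hd : Nat.card K ∣ 20160) (hE : Excl K) :
    5 ∣ Nat.card K ∨ 7 ∣ Nat.card K := by
  by_contra hcon
  push Not at hcon
  obtain ⟨h5, h7⟩ := hcon
  have hc5 : (Nat.card K).Coprime 5 := ((Nat.Prime.coprime_iff_not_dvd (by norm_num)).mpr h5).symm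
  have hc7 : (Nat.card K).Coprime 7 := ((Nat.Prime.coprime_iff_not_dvd (by norm_num)).mpr h7).symm
  have h1 : Nat.card K ∣ 64 * 9 := by
    have h2 : (20160 : ℕ) = 64 * 9 * (5 * 7) := by norm_num
    rw [h2] at hd
    exact (Nat.Coprime.mul_right hc5 hc7).dvd_of_dvd_mul_right hd
  obtain ⟨x, y, hx, hy, hxy⟩ := (Nat.dvd_mul).mp h1
  obtain ⟨a, -, rfl⟩ := (Nat.dvd_prime_pow Nat.prime_two).mp (show x ∣ 2 ^ 6 from hx)
  obtain ⟨b, -, rfl⟩ := (Nat.dvd_prime_pow Nat.prime_three).mp (show y ∣ 3 ^ 2 from hy)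
  have hs := Cfsg.Agent.Lib.Char.Burnside.isSolvable_of_card_eq (G := K) 2 3 a b Nat.prime_two Nat.prime_three hxy.symm
  exact not_excl_of_solvable hs hE

theorem T5_valid : ∀ c ∈ N40.T, ∃ g : Equiv.Perm (Fin 8), Rep 3 7 e8 c g := reps_of_valid N40.valid
theorem T7_valid : ∀ c ∈ N39.T, ∃ g : Equiv.Perm (Fin 8), Rep 3 7 e8 c g := reps_of_valid N39.valid

theorem card_T5 : Nat.card (HH N40.T) = 5 := by
  obtain ⟨-, -, -, -, -, h⟩ := main_of_checkAll (e := e8) T5_valid N40.check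
  rw [h]
  decide +kernel

theorem card_T7 : Nat.card (HH N39.T) = 7 := by
  obtain ⟨-, -, -, -, -, h⟩ := main_of_checkAll (e := e8) T7_valid N39.check
  rw [h]
  decide +kernel

/-- Sifts in the top chain. -/
theorem T5_le : HH N40.T ≤ HH Amb.gA := by
  obtain ⟨hm, hid, -, hsem, hTeq, -⟩ := main_of_checkAll (e := e8) (reps_of_valid N00.valid) N00.check
  have h : allL (sift 8 3 7 24 0xffffff idc8 N00.levels) N40.T = true := by decide +kernel
  have hgA : HH Amb.gA = HH N00.T := by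
    congr 1
  rw [show HH Amb.gA = H 3 7 e8 (topGens N00.levels) from hgA.trans hTeq]
  apply (Subgroup.closure_le _).2
  rintro g ⟨c, hc, hg⟩
  exact sift_sound_of_sem hm hid N00.levels hsem c g hg ((allL_eq_true _ _).mp h c hc)

theorem T7_le : HH N39.T ≤ HH Amb.gA := by
  obtain ⟨hm, hid, -, hsem, hTeq, -⟩ := main_of_checkAll (e := e8) (reps_of_valid N00.valid) N00.check
  have h : allL (sift 8 3 7 24 0xffffff idc8 N00.levels) N39.T = true := by decide +kernel
  have hgA : HH Amb.gA = HH N00.T := by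
    congr 1
  rw [show HH Amb.gA = H 3 7 e8 (topGens N00.levels) from hgA.trans hTeq]
  apply (Subgroup.closure_le _).2
  rintro g ⟨c, hc, hg⟩
  exact sift_sound_of_sem hm hid N00.levels hsem c g hg ((allL_eq_true _ _).mp h c hc)

/-- After conjugation a subgroup containing an element of order `p` contains the standard subgroup of order `p`. -/
theorem exists_conj_contains {p : ℕ} [Fact p.Prime] (hp : ¬ p ^ 2 ∣ 20160) (T : List Nat) (hT : HH T ≤ HH Amb.gA)
    (hcT : Nat.card (HH T) = p) (X : Subgroup (Equiv.Perm (Fin 8))) (hX : X ≤ HH Amb.gA) (c : X) (hc : orderOf c = p) :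
    ∃ x ∈ HH Amb.gA, HH T ≤ X.map (MulAut.conj x).toMonoidHom ∧ X.map (MulAut.conj x).toMonoidHom ≤ HH Amb.gA := by
  let Γ := HH Amb.gA
  let c' : Γ := ⟨c.1, hX c.2⟩
  have hord : orderOf c' = p := by
    rw [← hc]
    have h1 : orderOf c' = orderOf (c.1) := Subgroup.orderOf_mk _ _
    have h2 : orderOf c = orderOf (c.1) := (Subgroup.orderOf_coe c).symm
    rw [h1, h2]
  let A : Subgroup Γ := zpowers c'
  let B : Subgroup Γ := (HH T).subgroupOf Γ
  have hA : Nat.card A = p := by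
    rw [Nat.card_zpowers, hord]
  have hB : Nat.card B = p := by
    rw [← hcT]
    exact Nat.card_congr (Subgroup.subgroupOfEquivOfLe hT).toEquiv
  have hcardΓ : Nat.card Γ = 20160 := GL4.card_amb
  obtain ⟨y, hy⟩ := exists_conj_of_card_prime A B hA hB (by rw [hcardΓ]; exact hp)
  refine ⟨(y : Equiv.Perm (Fin 8)), y.2, ?_, ?_⟩
  · intro b hb
    have h1 : (⟨b, hT hb⟩ : Γ) ∈ B := hb
    have h2 := hy _ h1
    obtain ⟨k, hk⟩ := Subgroup.mem_zpowers_iff.mp h2
    refine ⟨c.1 ^ k, X.zpow_mem c.2 k, ?_⟩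
    have h3 : ((c' ^ k : Γ) : Equiv.Perm (Fin 8)) = c.1 ^ k := by
      simp [c']
    have h4 : (y : Equiv.Perm (Fin 8))⁻¹ * b * y = c.1 ^ k := by
      rw [← h3, hk]
      rfl
    show (y : Equiv.Perm (Fin 8)) * c.1 ^ k * (y : Equiv.Perm (Fin 8))⁻¹ = b
    rw [← h4]
    group
  · rintro _ ⟨a, ha, rfl⟩
    show (y : Equiv.Perm (Fin 8)) * a * (y : Equiv.Perm (Fin 8))⁻¹ ∈ HH Amb.gA
    exact (HH Amb.gA).mul_mem ((HH Amb.gA).mul_mem y.2 (hX ha)) ((HH Amb.gA).inv_mem y.2)

/-- The classification for subgroups of the ambient group. -/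
theorem classify_perm (X : Subgroup (Equiv.Perm (Fin 8))) (hX : X ≤ HH Amb.gA) (hne : X ≠ ⊥) (hE : Excl X) : Target X := by
  have : Nontrivial X := (Subgroup.nontrivial_iff_ne_bot X).mpr hne
  have hd : Nat.card X ∣ 20160 := by
    rw [← GL4.card_amb]
    exact Subgroup.card_dvd_of_le hX
  have hconj : ∀ (x : Equiv.Perm (Fin 8)), Nonempty (X ≃* X.map (MulAut.conj x).toMonoidHom) := fun x =>
    ⟨X.equivMapOfInjective _ (MulAut.conj x).injective⟩
  rcases five_or_seven hd hE with h | h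
  · have : Fact (Nat.Prime 5) := ⟨by norm_num⟩
    obtain ⟨c, hc⟩ := exists_prime_orderOf_dvd_card' 5 h
    obtain ⟨x, -, h1, h2⟩ := exists_conj_contains (by norm_num) N40.T T5_le card_T5 X hX c hc
    obtain ⟨f⟩ := hconj x
    exact Target.of_equiv f (N40.concl _ h1 h2 (Excl.of_equiv f hE))
  · have : Fact (Nat.Prime 7) := ⟨by norm_num⟩
    obtain ⟨c, hc⟩ := exists_prime_orderOf_dvd_card' 7 h
    obtain ⟨x, -, h1, h2⟩ := exists_conj_contains (by norm_num) N39.T T7_le card_T7 X hX c hc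
    obtain ⟨f⟩ := hconj x
    exact Target.of_equiv f (N39.concl _ h1 h2 (Excl.of_equiv f hE))

/-- The classification for subgroups of `GL₄(2)`. -/
theorem classify (H : Subgroup (GL (Fin 4) (ZMod 2))) (hH : H ≠ ⊥) (hE : Excl H) : Target H := by
  obtain ⟨f⟩ := GL4.equiv_gl4
  let φ : GL (Fin 4) (ZMod 2) →* Equiv.Perm (Fin 8) := (HH Amb.gA).subtype.comp f.symm.toMonoidHom
  have hφ : Function.Injective φ := (Subtype.val_injective).comp f.symm.injective
  let X := H.map φ
  have e : H ≃* X := H.equivMapOfInjective φ hφ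
  have hX : X ≤ HH Amb.gA := by
    rintro _ ⟨a, -, rfl⟩
    exact (f.symm a).2
  have hne : X ≠ ⊥ := by
    intro h
    apply hH
    rw [eq_bot_iff]
    intro a ha
    have h1 : φ a ∈ X := ⟨a, ha, rfl⟩
    rw [h, Subgroup.mem_bot] at h1
    rw [Subgroup.mem_bot]
    exact hφ (h1.trans (map_one φ).symm)
  exact Target.of_equiv e (classify_perm X hX hne (Excl.of_equiv e hE))

end Cfsg.Agent.Lib.OverLat.A8.Classify
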