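import Cfsg.Agent.Lib.OverLat.Basic
import Cfsg.Agent.Lib.Classical.MatrixBridge

/-!
# Common setup for the overgroup lattices in `A₈`

Groups are subgroups of `Perm (Fin 8)` presented by codes with three bits per point.
-/

set_option autoImplicit false
set_option linter.unusedSectionVars false

namespace Cfsg.Agent.Lib.OverLat.A8.Common

open Cfsg.Agent.Lib.PermComp.Core Cfsg.Agent.Lib.PermComp.Chain Cfsg.Agent.Lib.OverLat.Core
open Cfsg.Agent.Lib.OverLat.Basic Subgroup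

/-- The code of the identity of `Perm (Fin 8)`. -/
def idc8 : Nat := 0o76543210

/-- The numbering. -/
abbrev e8 : Fin 8 ≃ Fin 8 := Equiv.refl _

/-- The group generated by the codes. -/
abbrev HH (T : List Nat) : Subgroup (Equiv.Perm (Fin 8)) := H 3 7 e8 T

theorem hm8 : (7 : Nat) = 2 ^ 3 - 1 := rfl
theorem hn8 : (8 : Nat) = 2 ^ 3 := rfl
theorem hid8 : ∀ i < 8, app 3 7 idc8 i = i := by decide +kernel

/-- The shape of the conclusion. -/
def Target (K : Type*) [Group K] : Prop :=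
  (∃ n : ℕ, 5 ≤ n ∧ n ≤ 8 ∧ Nonempty (K ≃* alternatingGroup (Fin n))) ∨
    Nonempty (K ≃* Equiv.Perm (Fin 5)) ∨ Nonempty (K ≃* Equiv.Perm (Fin 6)) ∨
      Nonempty (K ≃* GL (Fin 3) (ZMod 2))

theorem Target.of_equiv {K K' : Type*} [Group K] [Group K'] (f : K ≃* K') (h : Target K') : Target K := by
  rcases h with ⟨n, h1, h2, ⟨g⟩⟩ | ⟨⟨g⟩⟩ | ⟨⟨g⟩⟩ | ⟨⟨g⟩⟩
  · exact Or.inl ⟨n, h1, h2, ⟨f.trans g⟩⟩
  · exact Or.inr (Or.inl ⟨f.trans g⟩)
  · exact Or.inr (Or.inr (Or.inl ⟨f.trans g⟩))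
  · exact Or.inr (Or.inr (Or.inr ⟨f.trans g⟩))

/-- The statement proved for each node of the lattice (ambient group `HH gA`). -/
def Concl (gA T : List Nat) : Prop :=
  ∀ X : Subgroup (Equiv.Perm (Fin 8)), HH T ≤ X → X ≤ HH gA → Excl X → Target X

/-- All codes are valid. -/
theorem reps_of_valid {T : List Nat} (h : allL (validC 8 3 7 idc8) T = true) :
    ∀ c ∈ T, ∃ g : Equiv.Perm (Fin 8), Rep 3 7 e8 c g := fun c hc =>
  exists_rep_of_valid hm8 hid8 ((allL_eq_true _ _).mp h c hc)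

/-- A node. -/
theorem concl_of_step {gA T : List Nat} {prog : List (Nat × Nat × Nat)} {ls : List Lev}
    {targets : List (List Nat)} {C : StepCert}
    (hv : allL (validC 8 3 7 idc8) T = true)
    (hc : checkAll 8 3 7 24 0xffffff idc8 T prog ls = true)
    (hs : stepCheck 8 3 7 24 0xffffff idc8 ls targets T C = true)
    (hA : C.tabsA.map (·.1) = gA)
    (hself : Excl (HH T) → Target (HH T))
    (hnext : ∀ t ∈ targets, Concl gA t) : Concl gA T := by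
  intro X h1 h2 hE
  obtain ⟨-, -, -, hsem, hTeq, -⟩ := main_of_checkAll (e := e8) (reps_of_valid hv) hc
  rw [← hA] at h2
  rcases step hn8 hm8 hid8 hsem hTeq (reps_of_valid hv) hs X h1 h2 with rfl | ⟨t, ht, hle⟩
  · exact hself hE
  · exact hnext t ht X hle (hA ▸ h2) hE

/-- A node with a normal 2-subgroup or a normal subgroup of odd order. -/
theorem not_excl {T NT : List Nat} {prog progN : List (Nat × Nat × Nat)} {ls lsN : List Lev}
    (hv : allL (validC 8 3 7 idc8) T = true) (hvN : allL (validC 8 3 7 idc8) NT = true)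
    (hc : checkAll 8 3 7 24 0xffffff idc8 T prog ls = true)
    (hcN : checkAll 8 3 7 24 0xffffff idc8 NT progN lsN = true)
    (hn : normCheck 8 3 7 24 0xffffff idc8 ls lsN T NT = true)
    (ho1 : orderC lsN ≠ 1) (ho : (∃ k, orderC lsN = 2 ^ k) ∨ (orderC lsN).Coprime 2) :
    ¬ Excl (HH T) := by
  obtain ⟨-, -, -, hsem, hTeq, -⟩ := main_of_checkAll (e := e8) (reps_of_valid hv) hc
  obtain ⟨-, -, -, hsemN, hTN, hcard⟩ := main_of_checkAll (e := e8) (reps_of_valid hvN) hcN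
  apply not_excl_of_check hm8 hid8 hsem hsemN hTeq hTN hn
  · rw [hcard]; exact ho1
  · rw [hcard]; exact ho

/-! ### Isomorphisms -/

section Iso

variable {m w₂ m₂ : Nat} {β : Type*} [Finite β] {e₂ : β ≃ Fin m}

/-- Digit check for a triple. -/
noncomputable def diagOK (w₃ m₃ m w₂ m₂ idc₂ : Nat) (r : Nat × Nat × Nat) : Bool :=
  ifB (allI (fun i => Nat.beq (app w₃ m₃ r.2.2 i) (app 3 7 r.1 i)) 8) <|
  ifB (allI (fun i => Nat.beq (app w₃ m₃ r.2.2 (Nat.add 8 i)) (Nat.add 8 (app w₂ m₂ r.2.1 i))) m) <|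
  ifB (validC 8 3 7 idc8 r.1) <|
  validC m w₂ m₂ idc₂ r.2.1

/-- The numbering of the disjoint union. -/
def eSum (e₂ : β ≃ Fin m) : (Fin 8 ⊕ β) ≃ Fin (8 + m) :=
  (Equiv.sumCongr (Equiv.refl _) e₂).trans finSumFinEquiv

theorem compat_of_diag {w₃ m₃ idc₂ : Nat} (hm₂ : m₂ = 2 ^ w₂ - 1) (hid₂ : ∀ i < m, app w₂ m₂ idc₂ i = i)
    {Ds : List (Nat × Nat × Nat)} (h : allL (diagOK w₃ m₃ m w₂ m₂ idc₂) Ds = true) :
    Compat 3 7 e8 w₂ m₂ e₂ w₃ m₃ (eSum e₂) Ds := by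
  intro r hr
  have h1 := (allL_eq_true _ _).mp h r hr
  simp only [diagOK, ifB_eq_true] at h1
  obtain ⟨h2, h3, h4, h5⟩ := h1
  refine ⟨exists_rep_of_valid hm8 hid8 h4, exists_rep_of_valid hm₂ hid₂ h5, ?_⟩
  intro g g' hg hg'
  rintro (a | b)
  · have h6 := Nat.eq_of_beq_eq_true ((allI_eq_true _ _).mp h2 a a.2)
    have h7 := hg a
    have h8 : ((eSum e₂ (Sum.inl a) : Fin (8 + m)) : ℕ) = a := by
      simp [eSum]
    have h9 : ((eSum e₂ ((Equiv.Perm.sumCongr g g') (Sum.inl a)) : Fin (8 + m)) : ℕ) = g a := by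
      simp [eSum]
    rw [h8, h9, h6]
    exact h7
  · have h6 := Nat.eq_of_beq_eq_true ((allI_eq_true _ _).mp h3 (e₂ b) (e₂ b).2)
    have h7 := hg' b
    have h8 : ((eSum e₂ (Sum.inr b) : Fin (8 + m)) : ℕ) = 8 + e₂ b := by
      simp [eSum]
    have h9 : ((eSum e₂ ((Equiv.Perm.sumCongr g g') (Sum.inr b)) : Fin (8 + m)) : ℕ) = 8 + e₂ (g' b) := by
      simp [eSum]
    rw [h8, h9]
    show app w₃ m₃ r.2.2 (Nat.add 8 (e₂ b)) = _
    rw [h6]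
    show 8 + app w₂ m₂ r.2.1 (e₂ b) = _
    rw [h7]

/-- The isomorphism from the three certificates. -/
theorem iso_of_checks {w₃ m₃ idc₂ L₂ maskL₂ L₃ maskL₃ idc₃ : Nat} {Ds : List (Nat × Nat × Nat)}
    {prog₁ prog₂ prog₃ : List (Nat × Nat × Nat)} {ls₁ ls₂ ls₃ : List Lev}
    (hm₂ : m₂ = 2 ^ w₂ - 1) (hid₂ : ∀ i < m, app w₂ m₂ idc₂ i = i)
    (hd : allL (diagOK w₃ m₃ m w₂ m₂ idc₂) Ds = true)
    (h1 : checkAll 8 3 7 24 0xffffff idc8 (Ds.map (·.1)) prog₁ ls₁ = true)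
    (h2 : checkAll m w₂ m₂ L₂ maskL₂ idc₂ (Ds.map (·.2.1)) prog₂ ls₂ = true)
    (h3 : checkAll (8 + m) w₃ m₃ L₃ maskL₃ idc₃ (Ds.map (·.2.2)) prog₃ ls₃ = true)
    (ho1 : orderC ls₃ = orderC ls₁) (ho2 : orderC ls₃ = orderC ls₂) :
    Nonempty (HH (Ds.map (·.1)) ≃* H w₂ m₂ e₂ (Ds.map (·.2.1))) ∧
      Nat.card (H w₂ m₂ e₂ (Ds.map (·.2.1))) = orderC ls₂ := by
  have hC := compat_of_diag (e₂ := e₂) hm₂ hid₂ hd
  have hT1 : ∀ c ∈ Ds.map (·.1), ∃ g : Equiv.Perm (Fin 8), Rep 3 7 e8 c g := by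
    intro c hc
    obtain ⟨r, hr, rfl⟩ := List.mem_map.mp hc
    exact (hC r hr).1
  have hT2 : ∀ c ∈ Ds.map (·.2.1), ∃ g : Equiv.Perm β, Rep w₂ m₂ e₂ c g := by
    intro c hc
    obtain ⟨r, hr, rfl⟩ := List.mem_map.mp hc
    exact (hC r hr).2.1
  have hT3 : ∀ c ∈ Ds.map (·.2.2), ∃ g : Equiv.Perm (Fin 8 ⊕ β), Rep w₃ m₃ (eSum e₂) c g := by
    intro c hc
    obtain ⟨r, hr, rfl⟩ := List.mem_map.mp hc
    obtain ⟨⟨g1, hg1⟩, ⟨g2, hg2⟩, h⟩ := hC r hr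
    exact ⟨_, h g1 g2 hg1 hg2⟩
  obtain ⟨-, -, -, -, -, c1⟩ := main_of_checkAll (e := e8) hT1 h1
  obtain ⟨-, -, -, -, -, c2⟩ := main_of_checkAll (e := e₂) hT2 h2
  obtain ⟨-, -, -, -, -, c3⟩ := main_of_checkAll (e := eSum e₂) hT3 h3
  refine ⟨iso_of_diag hC ?_ ?_, c2⟩
  · rw [c3, c1, ho1]
  · rw [c3, c2, ho2]

/-- Target: an alternating group. -/
theorem target_alt {k w₂ m₂ w₃ m₃ idc₂ L₂ maskL₂ L₃ maskL₃ idc₃ : Nat} (hk5 : 5 ≤ k) (hk8 : k ≤ 8) {T : List Nat} {Ds : List (Nat × Nat × Nat)}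
    {prog₁ prog₂ prog₃ : List (Nat × Nat × Nat)} {ls₁ ls₂ ls₃ : List Lev}
    (hT : Ds.map (·.1) = T)
    (hm₂ : m₂ = 2 ^ w₂ - 1) (hid₂ : ∀ i < k, app w₂ m₂ idc₂ i = i)
    (hd : allL (diagOK w₃ m₃ k w₂ m₂ idc₂) Ds = true)
    (h1 : checkAll 8 3 7 24 0xffffff idc8 (Ds.map (·.1)) prog₁ ls₁ = true)
    (h2 : checkAll k w₂ m₂ L₂ maskL₂ idc₂ (Ds.map (·.2.1)) prog₂ ls₂ = true)
    (h3 : checkAll (8 + k) w₃ m₃ L₃ maskL₃ idc₃ (Ds.map (·.2.2)) prog₃ ls₃ = true)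
    (ho1 : orderC ls₃ = orderC ls₁) (ho2 : orderC ls₃ = orderC ls₂) (ho3 : orderC ls₂ * 2 = k.factorial) :
    Target (HH T) := by
  subst hT
  obtain ⟨⟨f⟩, hc⟩ := iso_of_checks (e₂ := Equiv.refl (Fin k)) hm₂ hid₂ hd h1 h2 h3 ho1 ho2
  have hindex : (H w₂ m₂ (Equiv.refl (Fin k)) (Ds.map (·.2.1))).index = 2 := by
    have h4 := Subgroup.card_mul_index (H w₂ m₂ (Equiv.refl (Fin k)) (Ds.map (·.2.1)))
    rw [hc, Nat.card_eq_fintype_card, Fintype.card_perm, Fintype.card_fin, ← ho3] at h4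
    have h5 : 0 < orderC ls₂ := by
      rw [← hc]
      exact Nat.card_pos
    exact Nat.eq_of_mul_eq_mul_left h5 h4
  have heq := Equiv.Perm.eq_alternatingGroup_of_index_eq_two hindex
  exact Or.inl ⟨k, hk5, hk8, ⟨f.trans (MulEquiv.subgroupCongr heq)⟩⟩

/-- Target: a symmetric group. -/
theorem exists_iso_perm {k w₂ m₂ w₃ m₃ idc₂ L₂ maskL₂ L₃ maskL₃ idc₃ : Nat} {T : List Nat} {Ds : List (Nat × Nat × Nat)}
    {prog₁ prog₂ prog₃ : List (Nat × Nat × Nat)} {ls₁ ls₂ ls₃ : List Lev}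
    (hT : Ds.map (·.1) = T)
    (hm₂ : m₂ = 2 ^ w₂ - 1) (hid₂ : ∀ i < k, app w₂ m₂ idc₂ i = i)
    (hd : allL (diagOK w₃ m₃ k w₂ m₂ idc₂) Ds = true)
    (h1 : checkAll 8 3 7 24 0xffffff idc8 (Ds.map (·.1)) prog₁ ls₁ = true)
    (h2 : checkAll k w₂ m₂ L₂ maskL₂ idc₂ (Ds.map (·.2.1)) prog₂ ls₂ = true)
    (h3 : checkAll (8 + k) w₃ m₃ L₃ maskL₃ idc₃ (Ds.map (·.2.2)) prog₃ ls₃ = true)
    (ho1 : orderC ls₃ = orderC ls₁) (ho2 : orderC ls₃ = orderC ls₂) (ho3 : orderC ls₂ = k.factorial) :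
    Nonempty (HH T ≃* Equiv.Perm (Fin k)) := by
  subst hT
  obtain ⟨⟨f⟩, hc⟩ := iso_of_checks (e₂ := Equiv.refl (Fin k)) hm₂ hid₂ hd h1 h2 h3 ho1 ho2
  have heq : H w₂ m₂ (Equiv.refl (Fin k)) (Ds.map (·.2.1)) = ⊤ := by
    apply Subgroup.eq_top_of_card_eq
    rw [hc, ho3, Nat.card_eq_fintype_card, Fintype.card_perm, Fintype.card_fin]
  exact ⟨f.trans ((MulEquiv.subgroupCongr heq).trans Subgroup.topEquiv)⟩

/-! ### General linear groups over the field with two elements -/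

section GLk

open Cfsg.Agent.Lib.Classical.MatrixBridge

variable (k : ℕ)

/-- The action on vectors. -/
noncomputable def rho : GL (Fin k) (ZMod 2) →* Equiv.Perm (Fin k → ZMod 2) :=
  MonoidHom.mk' (fun g => (glToLin g).toEquiv) (fun a b => by
    ext x : 1
    show glToLin (a * b) x = glToLin a (glToLin b x)
    rw [map_mul]
    rfl)

theorem rho_apply (g : GL (Fin k) (ZMod 2)) (x : Fin k → ZMod 2) :
    rho k g x = (g : Matrix (Fin k) (Fin k) (ZMod 2)).mulVec x := glToLin_apply g x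

theorem rho_injective : Function.Injective (rho k) := by
  intro g h hgh
  apply glToLin.injective
  apply LinearEquiv.ext
  intro x
  have := congrArg (fun f : Equiv.Perm (Fin k → ZMod 2) => f x) hgh
  exact this

/-- The numbering of the vectors. -/
def eV : (Fin k → ZMod 2) ≃ Fin (2 ^ k) := finFunctionFinEquiv

/-- A matrix acts as a code. -/
theorem rep_of_mat {w m : Nat} (g : GL (Fin k) (ZMod 2)) (c : Nat)
    (h : ∀ a : Fin k → ZMod 2, app w m c (eV k a) = eV k ((g : Matrix (Fin k) (Fin k) (ZMod 2)).mulVec a)) :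
    Rep w m (eV k) c (rho k g) := by
  intro a
  rw [h a, rho_apply]

/-- A group generated by matrices of the right order is the whole general linear group. -/
theorem equiv_GL {w m : Nat} {T : List Nat} (hk : Nat.card (GL (Fin k) (ZMod 2)) = Nat.card (H w m (eV k) T))
    (hT : ∀ c ∈ T, ∃ g : GL (Fin k) (ZMod 2), Rep w m (eV k) c (rho k g)) :
    Nonempty (H w m (eV k) T ≃* GL (Fin k) (ZMod 2)) := by
  have hle : H w m (eV k) T ≤ (rho k).range := by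
    apply (Subgroup.closure_le _).2
    rintro g ⟨c, hc, hg⟩
    obtain ⟨g', hg'⟩ := hT c hc
    rw [hg.unique hg']
    exact ⟨g', rfl⟩
  have hcard : Nat.card ((rho k).range) = Nat.card (GL (Fin k) (ZMod 2)) :=
    Nat.card_congr (MonoidHom.ofInjective (rho_injective k)).toEquiv.symm
  have heq : H w m (eV k) T = (rho k).range :=
    Subgroup.eq_of_le_of_card_ge hle (by rw [hcard, hk])
  exact ⟨(MulEquiv.subgroupCongr heq).trans (MonoidHom.ofInjective (rho_injective k)).symm⟩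

/-- Target: `GL₃(2)`. -/
theorem target_gl3 {w₃ m₃ idc₂ L₂ maskL₂ L₃ maskL₃ idc₃ : Nat} {T : List Nat} {Ds : List (Nat × Nat × Nat)}
    {prog₁ prog₂ prog₃ : List (Nat × Nat × Nat)} {ls₁ ls₂ ls₃ : List Lev}
    (hT : Ds.map (·.1) = T)
    (hm₂ : (7 : Nat) = 2 ^ 3 - 1) (hid₂ : ∀ i < 8, app 3 7 idc₂ i = i)
    (hd : allL (diagOK w₃ m₃ 8 3 7 idc₂) Ds = true)
    (h1 : checkAll 8 3 7 24 0xffffff idc8 (Ds.map (·.1)) prog₁ ls₁ = true)
    (h2 : checkAll 8 3 7 L₂ maskL₂ idc₂ (Ds.map (·.2.1)) prog₂ ls₂ = true)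
    (h3 : checkAll (8 + 8) w₃ m₃ L₃ maskL₃ idc₃ (Ds.map (·.2.2)) prog₃ ls₃ = true)
    (ho1 : orderC ls₃ = orderC ls₁) (ho2 : orderC ls₃ = orderC ls₂) (ho3 : orderC ls₂ = 168)
    (hGL : ∀ c ∈ Ds.map (·.2.1), ∃ g : GL (Fin 3) (ZMod 2), Rep 3 7 (eV 3) c (rho 3 g)) :
    Target (HH T) := by
  subst hT
  obtain ⟨⟨f⟩, hc⟩ := iso_of_checks (e₂ := eV 3) hm₂ hid₂ hd h1 h2 h3 ho1 ho2
  have hcard : Nat.card (GL (Fin 3) (ZMod 2)) = 168 := by
    have : Fact (Nat.Prime 2) := ⟨Nat.prime_two⟩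
    rw [Matrix.card_GL_field]
    simp [ZMod.card, Fin.prod_univ_three]
  obtain ⟨g⟩ := equiv_GL 3 (by rw [hcard, hc, ho3]) hGL
  exact Or.inr (Or.inr (Or.inr ⟨f.trans g⟩))

end GLk

end Iso

end Cfsg.Agent.Lib.OverLat.A8.Common
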